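import Mathlib

/-! Groups whose real elements of odd order have centralizers transitive on Sylow 2-subgroups. -/

set_option autoImplicit false

namespace Cfsg.Agent.RD

open Subgroup

variable {G : Type*} [Group G]

/-- nontrivial real element of odd order -/
def RO (x : G) : Prop := x ≠ 1 ∧ Odd (orderOf x) ∧ IsConj x x⁻¹

/-- the arithmetic hypothesis -/
def HH (G : Type*) [Group G] : Prop :=
  ∀ x : G, RO x → (centralizer ({x} : Set G)).index.Coprime (Nat.card (Sylow 2 G))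

/-- the involutions of the centre of `S`, with `1` -/
def Zc (S : Sylow 2 G) : Subgroup G where
  carrier := {t | t ∈ (S : Subgroup G) ∧ t * t = 1 ∧ ∀ s ∈ (S : Subgroup G), s * t = t * s}
  one_mem' := ⟨one_mem _, mul_one _, fun s _ => by simp⟩
  mul_mem' := fun {a b} ha hb => ⟨mul_mem ha.1 hb.1, by
    rw [mul_assoc, ← mul_assoc b, ha.2.2 b hb.1, mul_assoc, hb.2.1, mul_one, ha.2.1], fun s hs => by
    rw [← mul_assoc, ha.2.2 s hs, mul_assoc, hb.2.2 s hs, mul_assoc]⟩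
  inv_mem' := fun {a} ha => by
    rw [inv_eq_of_mul_eq_one_right ha.2.1]; exact ha

theorem mem_Zc {S : Sylow 2 G} {t : G} :
    t ∈ Zc S ↔ t ∈ (S : Subgroup G) ∧ t * t = 1 ∧ ∀ s ∈ (S : Subgroup G), s * t = t * s := Iff.rfl

theorem mem_sm {S : Sylow 2 G} {g t : G} :
    t ∈ ((g • S : Sylow 2 G) : Subgroup G) ↔ g⁻¹ * t * g ∈ (S : Subgroup G) := by
  rw [Sylow.coe_subgroup_smul, Subgroup.mem_pointwise_smul_iff_inv_smul_mem]
  simp

theorem mem_Zc_sm {S : Sylow 2 G} {g t : G} : t ∈ Zc (g • S) ↔ g⁻¹ * t * g ∈ Zc S := by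
  rw [mem_Zc, mem_Zc, mem_sm]
  refine and_congr Iff.rfl (and_congr ⟨fun h => ?_, fun h => ?_⟩ ⟨fun h s hs => ?_, fun h s hs => ?_⟩)
  · calc _ = g⁻¹ * (t * t) * g := by group
      _ = 1 := by rw [h]; group
  · calc _ = g * (g⁻¹ * t * g * (g⁻¹ * t * g)) * g⁻¹ := by group
      _ = 1 := by rw [h]; group
  · have := h (g * s * g⁻¹) (mem_sm.2 (by simpa [mul_assoc] using hs))
    calc _ = g⁻¹ * (g * s * g⁻¹ * t) * g := by group
      _ = _ := by rw [this]; group
  · have := h _ (mem_sm.1 hs)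
    calc _ = g * (g⁻¹ * s * g * (g⁻¹ * t * g)) * g⁻¹ := by group
      _ = _ := by rw [this]; group

/-- the configuration in a simple group -/
structure Cx (G : Type*) [Group G] : Prop where
  tr : ∀ x : G, RO x → ∀ S S' : Sylow 2 G, ∃ c, c * x = x * c ∧ c • S = S'
  nf : ∀ x : G, RO x → ∀ S : Sylow 2 G, x • S ≠ S
  mx : ∀ (S : Sylow 2 G) (X : Subgroup G), X ≠ ⊥ → X ≤ S →
    (∀ g : G, g • S = S → g ∈ normalizer (X : Set G)) → ∀ g ∈ normalizer (X : Set G), g • S = S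
  zn : ∀ S : Sylow 2 G, Zc S ≠ ⊥
  two : ∃ S R : Sylow 2 G, S ≠ R

/-- no real element normalizes a subgroup between `Zc S` and `S` -/
def WL (G : Type*) [Group G] : Prop :=
  ∀ (y : G) (S : Sylow 2 G) (X : Subgroup G), RO y → Zc S ≤ X → X ≤ S →
    y ∈ normalizer (X : Set G) → False

/-- no edges -/
def NE (G : Type*) [Group G] : Prop := ∀ S R : Sylow 2 G, Zc R ≤ (S : Subgroup G) → R = S

theorem Cx.cz (h : Cx G) (S : Sylow 2 G) {g : G} (hg : g ∈ normalizer (Zc S : Set G)) : g • S = S :=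
  h.mx S _ (h.zn S) (fun _ ht => ht.1) (fun k hk => mem_normalizer_iff''.2 fun t => by
    conv_lhs => rw [← hk]
    exact mem_Zc_sm) g hg

end Cfsg.Agent.RD
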