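import Cfsg.Agent.RD.A
import Cfsg.Agent.H25.Real

set_option autoImplicit false
set_option linter.style.haveILetI false

namespace Cfsg.Agent.RD

open Subgroup MulAction

variable {G : Type*} [Group G] [Finite G]

theorem trans_of_coprime (C : Subgroup G) (hc : C.index.Coprime (Nat.card (Sylow 2 G))) (S S' : Sylow 2 G) :
    ∃ c ∈ C, c • S = S' := by
  haveI : Fact (Nat.Prime 2) := ⟨Nat.prime_two⟩
  have e1 : (stabilizer G S).index = Nat.card (Sylow 2 G) := by
    rw [Sylow.stabilizer_eq_normalizer, S.card_eq_index_normalizer]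
  have e2 : (stabilizer G S).relIndex C = (orbit C S).ncard := by
    rw [← index_stabilizer]; rfl
  have d : Nat.card (Sylow 2 G) ∣ (orbit C S).ncard := by
    apply hc.symm.dvd_of_dvd_mul_right
    rw [← e2, ← inf_relIndex_right, relIndex_mul_index inf_le_right, ← e1]
    exact index_dvd_of_le inf_le_left
  have hu : orbit C S = Set.univ := by
    apply Set.eq_of_subset_of_ncard_le (Set.subset_univ _)
    rw [Set.ncard_univ]
    exact Nat.le_of_dvd ((Set.ncard_pos (Set.toFinite _)).2 ⟨S, mem_orbit_self S⟩) d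
  obtain ⟨c, hc⟩ : S' ∈ orbit C S := hu ▸ Set.mem_univ _
  exact ⟨c.1, c.2, hc⟩

theorem cx' [IsSimpleGroup G] (ns : ¬ Group.IsSolvable G) (ev : 2 ∣ Nat.card G) (h : HH G) : Cx G := by
  haveI : Fact (Nat.Prime 2) := ⟨Nat.prime_two⟩
  have nt : ∀ S : Sylow 2 G, (S : Subgroup G) ≠ ⊤ := fun S e => by
    have hp : IsPGroup 2 G := (e ▸ S.isPGroup' : IsPGroup 2 (⊤ : Subgroup G)).of_equiv topEquiv
    haveI := hp.isNilpotent
    exact ns inferInstance
  have nn : ∀ S : Sylow 2 G, ¬ (S : Subgroup G).Normal := fun S hn =>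
    (hn.eq_bot_or_eq_top).elim (S.ne_bot_of_dvd_card ev) (nt S)
  have tr : ∀ x : G, RO x → ∀ S S' : Sylow 2 G, ∃ c, c * x = x * c ∧ c • S = S' := fun x hx S S' => by
    obtain ⟨c, h1, h2⟩ := trans_of_coprime _ (h x hx) S S'
    exact ⟨c, mem_centralizer_singleton_iff.1 h1, h2⟩
  refine ⟨tr, fun x hx S e => ?_, fun S X X0 XS hN g hg => ?_, fun S e => ?_, ?_⟩
  · have hk : x ∈ (toPermHom G (Sylow 2 G)).ker := by
      rw [MonoidHom.mem_ker]
      ext1 S'
      obtain ⟨c, h1, rfl⟩ := tr x hx S S'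
      change x • c • S = c • S
      rw [← mul_smul, ← h1, mul_smul, e]
    rcases (inferInstance : (toPermHom G (Sylow 2 G)).ker.Normal).eq_bot_or_eq_top with k | k
    · rw [k, mem_bot] at hk; exact hx.1 hk
    · refine nn S (normalizer_eq_top_iff.1 (eq_top_iff.2 fun g _ => ?_))
      have : g ∈ (toPermHom G (Sylow 2 G)).ker := k ▸ mem_top g
      exact Sylow.smul_eq_iff_mem_normalizer.1 (DFunLike.congr_fun (MonoidHom.mem_ker.1 this) S)
  · set M := normalizer (X : Set G) with hM
    have MT : M ≠ ⊤ := fun e => by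
      rcases (normalizer_eq_top_iff.1 e).eq_bot_or_eq_top with k | k
      · exact X0 k
      · exact nt S (top_le_iff.1 (k ▸ XS))
    have SM : (S : Subgroup G) ≤ M := fun s hs =>
      hN s (Sylow.smul_eq_iff_mem_normalizer.2 (le_normalizer hs))
    haveI := H25.sylow_two_normal_of_no_real (S.subtype SM) (fun x x1 xo xc => by
      have ro : RO (x : G) := ⟨fun e => x1 (Subtype.ext e), by rwa [Subgroup.orderOf_coe],
        M.subtype.map_isConj xc⟩
      have hc : (x : G) ∈ M.normalCore := fun g => by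
        obtain ⟨c, h1, h2⟩ := tr x ro S (g⁻¹ • S)
        have m := hN (g * c) (by rw [mul_smul, h2, smul_inv_smul])
        have : g * x * g⁻¹ = g * c * x * (g * c)⁻¹ := by rw [mul_assoc g c, h1]; group
        rw [this]
        exact mul_mem (mul_mem m x.2) (inv_mem m)
      rcases (inferInstance : M.normalCore.Normal).eq_bot_or_eq_top with k | k
      · rw [k, mem_bot] at hc; exact ro.1 hc
      · exact MT (top_le_iff.1 (k ▸ M.normalCore_le)))
    have e : (⟨g, hg⟩ : M) • S.subtype SM = S.subtype SM := Sylow.smul_eq_of_normal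
    rw [Sylow.smul_subtype] at e
    exact Sylow.subtype_injective e
  · haveI : Nontrivial S := (nontrivial_iff_ne_bot _).2 (S.ne_bot_of_dvd_card ev)
    haveI := S.isPGroup'.center_nontrivial
    obtain ⟨n, hn, c⟩ := (S.isPGroup'.to_subgroup (center S)).nontrivial_iff_card.1 inferInstance
    obtain ⟨t, ht⟩ := exists_prime_orderOf_dvd_card' (G := center S) 2 (c ▸ dvd_pow_self 2 hn.ne')
    have t2 : t * t = 1 := by rw [← pow_two]; exact orderOf_dvd_iff_pow_eq_one.1 ht.dvd
    have : (t.1.1 : G) ∈ Zc S := ⟨t.1.2, congrArg (fun x : center S => (x.1.1 : G)) t2, fun s hs =>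
      congrArg Subtype.val (mem_center_iff.1 t.2 ⟨s, hs⟩)⟩
    rw [e, mem_bot] at this
    have t1 : t = 1 := Subtype.ext (Subtype.ext this)
    rw [t1, orderOf_one] at ht
    omega
  · by_contra! k
    haveI : Subsingleton (Sylow 2 G) := ⟨k⟩
    exact nn default (Sylow.normal_of_subsingleton _)

end Cfsg.Agent.RD
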