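import Cfsg.Agent.RD.RED
import Cfsg.Agent.H1.SylowIn

/-! A disconnected real class size graph has an even vertex. -/

set_option autoImplicit false

namespace Cfsg.Agent.RD

open Subgroup

namespace E1

theorem avg {V : Type*} [CommGroup V] [Finite V] (h2 : ∀ v : V, v * v = 1) (A H : Subgroup (MulAut V))
    (le : H ≤ A) (odd : Odd (Nat.card A)) {p q : V} (hp : ∀ g ∈ A, ∃ h ∈ H, g p = h p)
    (hq : ∀ g ∈ A, ∃ h ∈ H, g q = h q) (hw : ∀ h ∈ H, h (p * q) = p * q) :
    ∀ g ∈ A, g (p * q) = p * q := by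
  classical
  haveI : ∀ K : Subgroup (MulAut V), Fintype K := fun K => Fintype.ofFinite K
  have pw : ∀ (v : V) (n : ℕ), Odd n → v ^ n = v := fun v n ⟨k, hk⟩ => by
    rw [hk, pow_succ, pow_mul, pow_two, h2, one_pow, one_mul]
  have oH : Odd (Nat.card H) := odd.of_dvd_nat (card_dvd_of_le le)
  let T : Subgroup (MulAut V) → V → V := fun K v => ∏ σ : K, (σ : MulAut V) v
  have inv : ∀ K, ∀ k ∈ K, ∀ v, T K (k v) = T K v := fun K k hk v =>
    Fintype.prod_equiv (Equiv.mulRight (⟨k, hk⟩ : K)) _ _ fun σ => rfl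
  have fix : ∀ K, ∀ k ∈ K, ∀ v, k (T K v) = T K v := fun K k hk v => by
    simp only [T, map_prod]
    exact Fintype.prod_equiv (Equiv.mulLeft (⟨k, hk⟩ : K)) _ _ fun σ => rfl
  have cst : ∀ K : Subgroup (MulAut V), Odd (Nat.card K) → ∀ v, (∀ k ∈ K, k v = v) → T K v = v :=
    fun K o v hv => by
      simp only [T]
      rw [Finset.prod_congr rfl fun (σ : K) _ => hv σ σ.2, Finset.prod_const, Finset.card_univ,
        ← Nat.card_eq_fintype_card, pw _ _ o]
  have main : ∀ v, (∀ g ∈ A, ∃ h ∈ H, g v = h v) → T H v = T A v := fun v hv => by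
    have e1 : T H (T A v) = T A v := cst H oH _ fun k hk => fix A k (le hk) v
    have e2 : T H (T A v) = ∏ σ : A, T H ((σ : MulAut V) v) := by
      simp only [T, map_prod]
      exact Finset.prod_comm
    have e3 : ∀ σ : A, T H ((σ : MulAut V) v) = T H v := fun σ => by
      obtain ⟨h, hh, e⟩ := hv σ σ.2
      rw [e, inv H h hh]
    rw [← e1, e2, Finset.prod_congr rfl fun σ _ => e3 σ, Finset.prod_const, Finset.card_univ,
      ← Nat.card_eq_fintype_card, pw _ _ odd]
  have e : p * q = T A p * T A q := by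
    rw [← main p hp, ← main q hq, ← cst H oH _ hw]
    simp only [T, map_mul, Finset.prod_mul_distrib]
  intro g hg
  rw [e, map_mul, fix A g hg, fix A g hg]

variable {G : Type*} [Group G] [Finite G]

theorem core (S : Sylow 2 G) [hn : (S : Subgroup G).Normal] {p q : G} (hp : p ∈ Zc S) (hq : q ∈ Zc S)
    (cp : (centralizer ({p * q} : Set G)).index.Coprime (centralizer ({p} : Set G)).index)
    (cq : (centralizer ({p * q} : Set G)).index.Coprime (centralizer ({q} : Set G)).index) :
    (centralizer ({p * q} : Set G)).index = 1 := by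
  haveI : (Zc S).Normal := ⟨fun n hn g => by
    have := (mem_Zc_sm (S := S) (g := g) (t := g * n * g⁻¹)).2 (by simpa [mul_assoc] using hn)
    rwa [Sylow.smul_eq_of_normal] at this⟩
  let φ : G →* MulAut (Zc S) := MulAut.conjNormal
  have hφ : ∀ (g : G) (v : Zc S), ((φ g v : Zc S) : G) = g * v * g⁻¹ := fun g v => rfl
  have ker : (S : Subgroup G) ≤ φ.ker := fun s hs => by
    rw [MonoidHom.mem_ker]
    ext v
    rw [hφ, v.2.2.2 s hs, mul_inv_cancel_right]; rfl
  have odd : Odd (Nat.card φ.range) := by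
    rw [← index_ker]
    exact Nat.not_even_iff_odd.1 fun e => S.not_dvd_index (e.two_dvd.trans (index_dvd_of_le ker))
  have tr : ∀ v : Zc S, (centralizer ({p * q} : Set G)).index.Coprime (centralizer ({(v : G)} : Set G)).index →
      ∀ g ∈ φ.range, ∃ h ∈ (centralizer ({p * q} : Set G)).map φ, g v = h v := by
    rintro v c _ ⟨g, rfl⟩
    obtain ⟨x, hx, y, hy, rfl⟩ := H1.exists_mul_of_coprime_relIndex (K := ⊤)
      (H := centralizer ({p * q} : Set G)) (L := centralizer ({(v : G)} : Set G)) le_top le_top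
      (by rwa [relIndex_top_right, relIndex_top_right]) (mem_top g)
    refine ⟨φ x, mem_map_of_mem φ hx, Subtype.ext ?_⟩
    rw [hφ, hφ, mul_assoc x y, mem_centralizer_singleton_iff.1 hy]; group
  letI : CommGroup (Zc S) :=
    { (inferInstance : Group (Zc S)) with mul_comm := fun a b => Subtype.ext (b.2.2.2 a a.2.1) }
  have key := avg (V := Zc S) (fun v => Subtype.ext v.2.2.1) φ.range
    ((centralizer ({p * q} : Set G)).map φ) (map_le_range φ _) odd (p := ⟨p, hp⟩) (q := ⟨q, hq⟩)
    (tr _ cp) (tr _ cq) (by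
      rintro _ ⟨h, hh, rfl⟩
      refine Subtype.ext ?_
      change h * (p * q) * h⁻¹ = p * q
      rw [mem_centralizer_singleton_iff.1 hh, mul_inv_cancel_right])
  rw [index_eq_one, eq_top_iff]
  intro g _
  have : g * (p * q) * g⁻¹ = p * q := congrArg Subtype.val (key (φ g) ⟨g, rfl⟩)
  exact mem_centralizer_singleton_iff.2 (mul_inv_eq_iff_eq_mul.1 this)

end E1

theorem e1 {G : Type*} [Group G] [Finite G] (π₁ π₂ : Set ℕ) (h₁ : π₁.Nonempty) (h₂ : π₂.Nonempty)
    (cov : ∀ (q : ℕ) (x : G), q.Prime → IsConj x x⁻¹ → q ∣ (centralizer ({x} : Set G)).index →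
      q ∈ π₁ ∨ q ∈ π₂)
    (sub : ∀ q ∈ π₁ ∪ π₂, ∃ x : G, IsConj x x⁻¹ ∧ q ∣ (centralizer ({x} : Set G)).index)
    (no : ∀ a ∈ π₁, ∀ b ∈ π₂, ∀ x : G, IsConj x x⁻¹ → a ∣ (centralizer ({x} : Set G)).index →
      b ∣ (centralizer ({x} : Set G)).index → False) :
    ∃ x : G, IsConj x x⁻¹ ∧ 2 ∣ (centralizer ({x} : Set G)).index := by
  by_contra! hc
  obtain ⟨S⟩ : Nonempty (Sylow 2 G) := inferInstance
  haveI hn : (S : Subgroup G).Normal := H25.sylow_two_normal_of_no_real S fun x x1 xo xc =>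
    hc x xc (RO.ev ⟨x1, xo, xc⟩)
  haveI := Sylow.unique_of_normal S hn
  have mem : ∀ x : G, IsConj x x⁻¹ → x ∈ Zc S := fun x hx => by
    have x2 := H25.sq_eq_one_of_real_of_odd_index hx (hc x hx)
    obtain ⟨P, hP⟩ := L0.SymSyl.exists_sylow_le_of_odd (centralizer ({x} : Set G))
      (Nat.not_even_iff_odd.1 fun e => hc x hx e.two_dvd)
    rw [Subsingleton.elim P S] at hP
    refine ⟨H25.mem_of_pow_eq_one_of_not_dvd_index (j := 1) Nat.prime_two (by rw [pow_one, pow_two, x2])
      (by rw [normalizer_eq_top_iff.2 hn]; trivial) S.not_dvd_index, x2, fun s hs =>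
      mem_centralizer_singleton_iff.1 (hP hs)⟩
  obtain ⟨a, ha⟩ := h₁
  obtain ⟨b, hb⟩ := h₂
  obtain ⟨x, hx, ax⟩ := sub a (Or.inl ha)
  obtain ⟨y, hy, by'⟩ := sub b (Or.inr hb)
  have mx := mem x hx
  have my := mem y hy
  have mu : x * y ∈ Zc S := mul_mem mx my
  have hu : IsConj (x * y) (x * y)⁻¹ := by rw [inv_eq_of_mul_eq_one_right mu.2.1]
  have px : ∀ r : ℕ, r.Prime → r ∣ (centralizer ({x} : Set G)).index → r ∈ π₁ := fun r hr d =>
    (cov r x hr hx d).resolve_right fun e => no a ha r e x hx ax d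
  have py : ∀ r : ℕ, r.Prime → r ∣ (centralizer ({y} : Set G)).index → r ∈ π₂ := fun r hr d =>
    (cov r y hr hy d).resolve_left fun e => no r e b hb y hy d by'
  have cxy : (centralizer ({x} : Set G)).index.Coprime (centralizer ({y} : Set G)).index := by
    by_contra c
    obtain ⟨r, hr, r1, r2⟩ := Nat.Prime.not_coprime_iff_dvd.1 c
    exact no r (px r hr r1) b hb y hy r2 by'
  have ey : x * (x * y) = y := by rw [← mul_assoc, mx.2.1, one_mul]
  have ex : x * y * y = x := by rw [mul_assoc, my.2.1, mul_one]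
  by_cases c : (centralizer ({y} : Set G)).index.Coprime (centralizer ({x * y} : Set G)).index
  · have := E1.core S mx mu (by rw [ey]; exact cxy.symm) (by rw [ey]; exact c)
    rw [ey] at this
    rw [this] at by'
    exact no a ha b hb x hx ax (by'.trans (one_dvd _))
  · obtain ⟨r, hr, r1, r2⟩ := Nat.Prime.not_coprime_iff_dvd.1 c
    have c' : (centralizer ({x} : Set G)).index.Coprime (centralizer ({x * y} : Set G)).index := by
      by_contra c'
      obtain ⟨s, hs, s1, s2⟩ := Nat.Prime.not_coprime_iff_dvd.1 c'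
      exact no s (px s hs s1) r (py r hr r1) _ hu s2 r2
    have := E1.core S mu my (by rw [ex]; exact c') (by rw [ex]; exact cxy)
    rw [ex] at this
    rw [this] at ax
    exact no a ha b hb y hy (ax.trans (one_dvd _)) by'

end Cfsg.Agent.RD
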