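import Mathlib
import Cfsg.Agent.RD.A
import Cfsg.Agent.H8.Gagola2

/-! The final contradiction. -/

set_option autoImplicit false

namespace Cfsg.Agent.RD

open Subgroup

variable {G : Type*} [Group G] [Finite G]

theorem fin [IsSimpleGroup G] (ns : ¬ Group.IsSolvable G) (h : Cx G) (n : NE G)
    (sw : ∀ {S S2 : Sylow 2 G} (_ : S ≠ S2) {I : Subgroup G} (_ : I ≤ Zc S) (_ : I ≤ Zc S2)
      (_ : ∀ R R' : Sylow 2 G, R ≠ R' → Nat.card ↥(Zc R ⊓ Zc R') ≤ Nat.card I) {t a b : G}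
      (_ : t ∈ Zc S) (_ : t ∉ I) (_ : a ∈ Zc S2) (_ : a ∉ I) (_ : b ∈ Zc S2) (_ : b ∉ I),
      a * b ∈ I) : False := by
  classical
  obtain ⟨A, B, hAB⟩ := h.two
  haveI : Nonempty {p : Sylow 2 G × Sylow 2 G // p.1 ≠ p.2} := ⟨⟨(A, B), hAB⟩⟩
  obtain ⟨⟨⟨S, S'⟩, ne⟩, mx⟩ := Finite.exists_max
    (fun p : {p : Sylow 2 G × Sylow 2 G // p.1 ≠ p.2} => Nat.card ↥(Zc p.1.1 ⊓ Zc p.1.2))
  set I : Subgroup G := Zc S ⊓ Zc S' with hI
  have mx' : ∀ R R' : Sylow 2 G, R ≠ R' → Nat.card ↥(Zc R ⊓ Zc R') ≤ Nat.card I :=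
    fun R R' e => mx ⟨(R, R'), e⟩
  set L : Subgroup G := centralizer (I : Set G) with hL
  have SL : (S : Subgroup G) ≤ L := fun s hs => mem_centralizer_iff.2 fun i hi => (hi.1.2.2 s hs).symm
  have SL' : (S' : Subgroup G) ≤ L := fun s hs =>
    mem_centralizer_iff.2 fun i hi => (hi.2.2.2 s hs).symm
  have hO : Cfsg.pCore 2 L ≤ (S'.subtype SL' : Subgroup L) :=
    (Cfsg.Agent.H10.pCore_isPGroup' 2 L).le_sylow_of_normal _
  obtain ⟨t, ht, tO⟩ : ∃ t, ∃ ht : t ∈ Zc S, (⟨t, SL ht.1⟩ : L) ∉ Cfsg.pCore 2 L := by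
    by_contra! hc
    exact ne (n S' S fun t ht => by simpa [Sylow.coe_subtype, mem_subgroupOf] using hO (hc t ht))
  obtain ⟨y, y1, yo, hy⟩ := Cfsg.Agent.H8.exists_odd_inverted (t := (⟨t, SL ht.1⟩ : L))
    (Subtype.ext ht.2.1) tO
  obtain ⟨x, xL⟩ := y
  have x1 : x ≠ 1 := fun e => y1 (Subtype.ext e)
  have xo : Odd (orderOf x) := by simpa using yo
  have hx : t * x * t⁻¹ = x⁻¹ := congrArg Subtype.val hy
  have xc : ∀ i ∈ I, i * x = x * i := mem_centralizer_iff.1 xL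
  have ro : RO x := ⟨x1, xo, isConj_iff.2 ⟨t, hx⟩⟩
  have tI : t ∉ I := fun e => by
    have h2 : x ^ 2 = 1 := by
      rw [xc t e, mul_inv_cancel_right] at hx
      rw [pow_two]; nth_rewrite 2 [hx]; simp
    have := (Nat.coprime_two_right.2 xo).eq_one_of_dvd (orderOf_dvd_of_pow_eq_one h2)
    exact x1 (orderOf_eq_one_iff.1 this)
  have key : ∀ z ∈ Zc S, z * x * z⁻¹ = x ∨ z * x * z⁻¹ = x⁻¹ := fun z hz => by
    by_cases zI : z ∈ I
    · left; rw [xc z zI, mul_inv_cancel_right]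
    · right
      have zt : z * t ∈ I := by
        refine sw (S := x • S) (S2 := S) (h.nf x ro S) (fun i hi => mem_Zc_sm.2 ?_) inf_le_left mx'
          (t := x * t * x⁻¹) (mem_Zc_sm.2 ?_) (fun e => tI ?_) hz zI ht tI
        · rw [mul_assoc, xc i hi, inv_mul_cancel_left]; exact hi.1
        · simpa [mul_assoc] using ht
        · have := xc _ e
          have e2 : x * t * x⁻¹ = t := by
            have h3 : x * t = x * (x * t * x⁻¹) := by rw [← this]; group
            exact (mul_left_cancel h3).symm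
          rwa [e2] at e
      have c := xc _ zt
      have t2 : t⁻¹ = t := inv_eq_of_mul_eq_one_right ht.2.1
      have hx' : t⁻¹ * x * t = x⁻¹ := by rw [t2]; rw [t2] at hx; exact hx
      have c' : z * t * x⁻¹ = x⁻¹ * (z * t) := by
        calc _ = x⁻¹ * (x * (z * t)) * x⁻¹ := by group
          _ = _ := by rw [← c]; group
      calc z * x * z⁻¹ = z * t * (t⁻¹ * x * t) * (z * t)⁻¹ := by group
        _ = _ := by rw [hx', c']; group
  have all : ∀ g : G, g * t * g⁻¹ ∈ normalizer ((zpowers x : Subgroup G) : Set G) := fun g => by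
    obtain ⟨c, cx, hc⟩ := h.tr x ro S (g • S)
    have hm : g * t * g⁻¹ ∈ Zc (c • S) := by rw [hc]; exact mem_Zc_sm.2 (by simpa [mul_assoc] using ht)
    set u := g * t * g⁻¹
    have k := key _ (mem_Zc_sm.1 hm)
    have c1 : c * x * c⁻¹ = x := by rw [cx, mul_inv_cancel_right]
    have c2 : c * x⁻¹ * c⁻¹ = x⁻¹ := by nth_rewrite 2 [← c1]; group
    have c3 : c⁻¹ * x * c = x := by rw [mul_assoc, ← cx, inv_mul_cancel_left]
    have e : u * x * u⁻¹ = c * (c⁻¹ * u * c * x * (c⁻¹ * u * c)⁻¹) * c⁻¹ := by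
      nth_rewrite 2 [← c3]; group
    have k' : u * x * u⁻¹ ∈ zpowers x := by
      rw [e]
      rcases k with k | k
      · rw [k, c1]; exact mem_zpowers x
      · rw [k, c2]; exact inv_mem (mem_zpowers x)
    refine mem_normalizer_fintype fun w hw => ?_
    obtain ⟨m, rfl⟩ := mem_zpowers_iff.1 hw
    rw [← conj_zpow]
    exact zpow_mem k' m
  have t1 : t ≠ 1 := fun e => tI (e ▸ one_mem I)
  have top : normalClosure ({t} : Set G) = ⊤ :=
    (IsSimpleGroup.eq_bot_or_eq_top_of_normal _ inferInstance).resolve_left fun e =>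
      t1 (mem_bot.1 (e ▸ subset_normalClosure (Set.mem_singleton t)))
  have le : normalClosure ({t} : Set G) ≤ normalizer ((zpowers x : Subgroup G) : Set G) := by
    refine (closure_le _).2 fun u hu => ?_
    obtain ⟨a, ha, hc⟩ := Group.mem_conjugatesOfSet_iff.1 hu
    obtain ⟨g, rfl⟩ := isConj_iff.1 hc
    rw [Set.mem_singleton_iff.1 ha]
    exact all g
  have nm : (zpowers x).Normal := normalizer_eq_top_iff.1 (top_le_iff.1 (top ▸ le))
  have tp : zpowers x = ⊤ :=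
    (IsSimpleGroup.eq_bot_or_eq_top_of_normal _ nm).resolve_left fun e =>
      x1 (zpowers_eq_bot.1 e)
  refine ns (Group.isSolvable_of_comm fun a b => ?_)
  obtain ⟨i, rfl⟩ := mem_zpowers_iff.1 (tp ▸ mem_top a : a ∈ zpowers x)
  obtain ⟨j, rfl⟩ := mem_zpowers_iff.1 (tp ▸ mem_top b : b ∈ zpowers x)
  exact zpow_mul_comm x i j

end Cfsg.Agent.RD
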