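import Cfsg.Agent.RD.A
import Cfsg.Agent.H6.RealP
import Cfsg.Agent.H26.SylCount
import Cfsg.Agent.H26.ClassSize
import Cfsg.Agent.H2.Basic

/-! Reduction of the arithmetic hypothesis `HH` to simple groups. -/

set_option autoImplicit false

namespace Cfsg.Agent.RD

open Subgroup

namespace IND

variable {G : Type*} [Group G] [Finite G]

theorem syl_dvd (N : Subgroup G) [hN : N.Normal] : Nat.card (Sylow 2 N) ∣ Nat.card (Sylow 2 G) := by
  obtain ⟨P⟩ : Nonempty (Sylow 2 N) := inferInstance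
  obtain ⟨Q, hQ⟩ := P.exists_comap_subtype_eq
  have e : (P : Subgroup N).map N.subtype = N ⊓ Q := by rw [← hQ, map_comap_eq, range_subtype]
  have fr := P.normalizer_sup_eq_top
  rw [e] at fr
  have h1 := H26.index_eq_index_sup_mul N (normalizer ((N ⊓ Q : Subgroup G) : Set G))
  rw [sup_comm, fr, index_top, one_mul] at h1
  have h2 : (N ⊓ Q : Subgroup G).subgroupOf N = P := by
    rw [← hQ]; ext x; simp [mem_subgroupOf]
  have h3 : Nat.card (Sylow 2 N) = (normalizer ((N ⊓ Q : Subgroup G) : Set G)).index := by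
    rw [h1, relIndex, subgroupOf_normalizer_eq inf_le_left, h2, P.card_eq_index_normalizer]; rfl
  rw [h3, Q.card_eq_index_normalizer]
  refine index_dvd_of_le fun g hg => mem_normalizer_iff.2 fun x => ?_
  rw [mem_inf, mem_inf]
  refine and_congr ⟨fun h => hN.conj_mem x h g, fun h => ?_⟩ (mem_normalizer_iff.1 hg x)
  simpa [mul_assoc] using hN.conj_mem _ h g⁻¹

theorem hh_normal (N : Subgroup G) [N.Normal] (h : HH G) : HH N := fun x hx => by
  have h1 : RO (x : G) := ⟨fun e => hx.1 (Subtype.ext e), by rw [orderOf_coe]; exact hx.2.1,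
    N.subtype.map_isConj hx.2.2⟩
  refine Nat.Coprime.coprime_dvd_right (syl_dvd N) (Nat.Coprime.coprime_dvd_left ?_ (h _ h1))
  rw [H26.index_cent_subgroup, H26.index_eq_index_sup_mul N]
  exact Dvd.intro_left _ rfl

theorem hh_quot (A : Subgroup G) [A.Normal] {p : ℕ} (hp : p.Prime) (hA : IsPGroup p A) (h : HH G) :
    HH (G ⧸ A) := fun y hy => by
  haveI := Fact.mk hp
  obtain ⟨k, hk⟩ := hA.exists_card_eq
  obtain ⟨x, rfl, hx⟩ : ∃ x : G, (x : G ⧸ A) = y ∧ RO x := by
    rcases hp.eq_two_or_odd' with rfl | ho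
    · obtain ⟨x, rfl, h1, h2⟩ := H25.exists_real_lift A y
        (by rw [hk]; exact (Nat.coprime_two_right.2 hy.2.1).pow_right k) hy.2.2
      exact ⟨x, rfl, fun e => hy.1 (by rw [e]; rfl), h1 ▸ hy.2.1, h2⟩
    · have o : Odd (Nat.card A) := hk ▸ ho.pow
      obtain ⟨x, rfl, h2⟩ := H6.RP.exists_real_lift_of_odd A o.not_two_dvd_nat y hy.2.2
      refine ⟨x, rfl, fun e => hy.1 (by rw [e]; rfl), Odd.of_dvd_nat (hy.2.1.mul o) ?_, h2⟩
      have h3 : x ^ orderOf (x : G ⧸ A) ∈ A := by
        rw [← QuotientGroup.eq_one_iff, QuotientGroup.mk_pow, pow_orderOf_eq_one]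
      rw [orderOf_dvd_iff_pow_eq_one, pow_mul]
      exact congrArg Subtype.val (pow_card_eq_one' (x := (⟨_, h3⟩ : A)))
  obtain ⟨P⟩ : Nonempty (Sylow 2 G) := inferInstance
  exact Nat.Coprime.coprime_dvd_right (Dvd.intro _ (H26.card_sylow_eq_mul A P).symm)
    (Nat.Coprime.coprime_dvd_left (H26.index_cent_map_dvd (QuotientGroup.mk'_surjective A) x) (h x hx))

end IND

universe u

theorem ind (sm : ∀ (T : Type u) [Group T] [Finite T] [IsSimpleGroup T], HH T → Group.IsSolvable T)
    (G : Type u) [Group G] [Finite G] (h : HH G) : Group.IsSolvable G := by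
  revert h
  refine H2.card_induction (P := fun G _ _ => HH G → Group.IsSolvable G) (fun G _ _ ih h => ?_) G
  rcases subsingleton_or_nontrivial G with hs | hs
  · infer_instance
  by_cases hS : IsSimpleGroup G
  · exact sm G h
  obtain ⟨N, hN, h0, h1⟩ : ∃ N : Subgroup G, N.Normal ∧ N ≠ ⊥ ∧ N ≠ ⊤ := by
    by_contra hc
    push Not at hc
    exact hS ⟨fun N hN => or_iff_not_imp_left.2 (hc N hN)⟩
  have c1 : Nat.card N < Nat.card G := by
    have := N.card_mul_index
    have h2 : N.index ≠ 1 := fun e => h1 (index_eq_one.1 e)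
    have h3 : N.index ≠ 0 := index_ne_zero_of_finite
    have h4 := Nat.card_pos (α := N)
    have : 2 ≤ N.index := by omega
    nlinarith
  haveI := ih N c1 (IND.hh_normal N h)
  obtain ⟨M, hM, MN⟩ := H2.exists_isMinNormal_le hN h0
  haveI := hM.normal
  haveI sM : Group.IsSolvable M := solvable_of_solvable_injective (inclusion_injective MN)
  obtain ⟨-, p, hp, pM⟩ := hM.exists_isPGroup sM
  have c2 : Nat.card (G ⧸ M) < Nat.card G := by
    have := M.card_mul_index
    have h2 := (one_lt_card_iff_ne_bot M).2 hM.ne_bot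
    have h3 : 0 < M.index := Nat.pos_of_ne_zero index_ne_zero_of_finite
    change M.index < _
    nlinarith
  haveI := ih (G ⧸ M) c2 (IND.hh_quot M hp pM h)
  exact solvable_of_ker_le_range M.subtype (QuotientGroup.mk' M) (by simp)

end Cfsg.Agent.RD
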