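import Cfsg.Agent.RD.A
import Cfsg.Agent.H25.Real
import Cfsg.Agent.H8.Gagola2
import Cfsg.Agent.H11.Syl

/-! The centre of a Sylow 2-subgroup lies in no other Sylow 2-subgroup. -/

set_option autoImplicit false

namespace Cfsg.Agent.RD

open Subgroup

variable {G : Type*} [Group G] [Finite G]

namespace PN

theorem lt_of_ne {S R : Sylow 2 G} (h : S ≠ R) : (S : Subgroup G) ⊓ R < S :=
  lt_of_le_of_ne inf_le_left fun e => h (Sylow.ext (S.3 R.isPGroup' (inf_eq_left.1 e)).symm)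

theorem big {D : Subgroup G} {S : Sylow 2 G} (lt : D < S) (mx : ∀ R : Sylow 2 G, D < (S : Subgroup G) ⊓ R → R = S)
    (O : Subgroup (normalizer (D : Set G))) [O.Normal] (hO : IsPGroup 2 O) :
    O.map (normalizer (D : Set G)).subtype ≤ S := by
  have : Fact (Nat.Prime 2) := ⟨Nat.prime_two⟩
  have h1 := H11.lt_inf_normalizer_of_lt S.isPGroup' lt
  have h2 : IsPGroup 2 ((S : Subgroup G).subgroupOf (normalizer (D : Set G)) ⊔ O : Subgroup _) :=
    IsPGroup.to_sup_of_normal_right (S.isPGroup'.comap_subtype) hO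
  obtain ⟨R, hR⟩ := (h2.map (normalizer (D : Set G)).subtype).exists_le_sylow
  have e := mx R (h1.trans_le (le_inf inf_le_left fun x hx =>
    hR ⟨⟨x, hx.2⟩, mem_sup_left (show (⟨x, hx.2⟩ : normalizer (D : Set G)) ∈ (S : Subgroup G).subgroupOf _ from hx.1), rfl⟩))
  exact (map_mono le_sup_right).trans (e ▸ hR)

end PN

open PN in
theorem ne (h : Cx G) (w : WL G) : NE G := by
  have : Fact (Nat.Prime 2) := ⟨Nat.prime_two⟩
  intro S R hR
  by_contra hne
  obtain ⟨⟨S1, S2, S3⟩, ⟨n12, z3⟩, mx⟩ := Set.exists_max_image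
    {T : Sylow 2 G × Sylow 2 G × Sylow 2 G | T.1 ≠ T.2.1 ∧ Zc T.2.2 ≤ (T.1 : Subgroup G) ⊓ T.2.1}
    (fun T => Nat.card ((T.1 : Subgroup G) ⊓ T.2.1 : Subgroup G)) (Set.toFinite _)
    ⟨(R, S, R), hne, le_inf (fun _ ht => ht.1) hR⟩
  dsimp only at n12 z3 mx
  have l1 := lt_of_ne n12
  have l2 : (S1 : Subgroup G) ⊓ S2 < S2 := inf_comm (S1 : Subgroup G) S2 ▸ lt_of_ne n12.symm
  have m : ∀ T T' : Sylow 2 G, (S1 : Subgroup G) ⊓ S2 < (T : Subgroup G) ⊓ T' → T' = T := fun T T' lt => by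
    by_contra e
    exact absurd (mx (T, T', S3) ⟨fun f => e f.symm, z3.trans lt.le⟩) (not_le.2 (H11.card_lt_of_lt lt))
  have D1 : (S1 : Subgroup G) ⊓ S2 ≤ S1 := inf_le_left
  have Di : ∀ x ∈ (S1 : Subgroup G), x ∈ (S2 : Subgroup G) → x ∈ (S1 : Subgroup G) ⊓ S2 := fun x a b => ⟨a, b⟩
  generalize (S1 : Subgroup G) ⊓ S2 = D at *
  have zD : Zc S1 ≤ D := fun t ht => by
    have tc : t ∈ centralizer (D : Set G) := mem_centralizer_iff.2 fun d hd => ht.2.2 d (D1 hd)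
    have tN : t ∈ normalizer (D : Set G) := centralizer_le_normalizer _ tc
    refine Di t ht.1 (big l2 (m S2) _ (H1.isPGroup_pCore 2 _) ⟨⟨t, tN⟩, ?_, rfl⟩)
    by_contra hO
    obtain ⟨y, y1, y2, y3⟩ := H8.exists_odd_inverted (t := (⟨t, tN⟩ : normalizer (D : Set G))) (Subtype.ext ht.2.1) hO
    have y4 : t * y * t⁻¹ = (y : G)⁻¹ := congrArg Subtype.val y3
    have y5 : Odd (orderOf (y : G)) := by rwa [orderOf_coe]
    have c1 : (y : G) * t * (y : G)⁻¹ ∈ centralizer (D : Set G) := mem_centralizer_iff.2 fun d hd => by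
      have := mem_centralizer_iff.1 tc _ (H11.conj_mem_of_mem_normalizer' y.2 hd)
      calc d * (y * t * (y : G)⁻¹) = y * ((y : G)⁻¹ * d * y * t) * (y : G)⁻¹ := by group
        _ = _ := by rw [this]; group
    have c2 : (y : G) ^ 2 ∈ centralizer (D : Set G) := by
      have := mul_mem c1 (inv_mem tc)
      rwa [show (y : G) * t * (y : G)⁻¹ * t⁻¹ = y * (t * y * t⁻¹)⁻¹ by group, y4, inv_inv, ← pow_two] at this
    have c3 : (y : G) ∈ centralizer (D : Set G) := by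
      obtain ⟨k, hk⟩ := exists_pow_eq_self_of_coprime (x := (y : G)) (n := 2) (Nat.coprime_two_left.2 y5)
      exact hk ▸ pow_mem c2 k
    exact h.nf y ⟨fun e => y1 (Subtype.ext e), y5, isConj_iff.2 ⟨t, y4⟩⟩ S3
      (h.cz S3 (centralizer_le_normalizer _ (centralizer_le z3 c3)))
  obtain ⟨T⟩ : Nonempty (Sylow 2 (normalizer (D : Set G))) := inferInstance
  have nT : ((T : Subgroup (normalizer (D : Set G)))).Normal := H25.sylow_two_normal_of_no_real T fun y y1 y2 y3 => by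
    refine w y S1 D ⟨fun e => y1 (Subtype.ext e), by rwa [orderOf_coe], ?_⟩ zD D1 y.2
    exact (normalizer (D : Set G)).subtype.map_isConj y3
  have h1 := H11.lt_inf_normalizer_of_lt S1.isPGroup' l1
  have h2 : IsPGroup 2 ((S1 : Subgroup G).subgroupOf (normalizer (D : Set G)) ⊔ T : Subgroup _) :=
    IsPGroup.to_sup_of_normal_right (S1.isPGroup'.comap_subtype) T.isPGroup'
  have h3 := T.3 h2 le_sup_right
  refine not_le_of_gt h1 fun x hx => Di x hx.1 (big l2 (m S2) _ T.isPGroup' ⟨⟨x, hx.2⟩, ?_, rfl⟩)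
  exact h3.le (mem_sup_left (show (⟨x, hx.2⟩ : normalizer (D : Set G)) ∈ (S1 : Subgroup G).subgroupOf _ from hx.1))

end Cfsg.Agent.RD
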