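import Cfsg.Agent.RD.A

/-! Two Sylow subgroups whose central involutions have a largest intersection. -/

set_option autoImplicit false

namespace Cfsg.Agent.RD

open Subgroup

variable {G : Type*} [Group G] [Finite G]

namespace SW

theorem split (w : G) : ∃ e ∈ zpowers w, ∃ u ∈ zpowers w, Odd (orderOf e) ∧ (∃ k : ℕ, u ^ 2 ^ k = 1) ∧ w = u * (e * e) := by
  obtain ⟨k, o, ho, e⟩ := Nat.exists_eq_two_pow_mul_odd (orderOf_pos w).ne'
  obtain ⟨d, f, h⟩ : IsCoprime ((2 : ℤ) ^ (k + 1)) o :=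
    by exact_mod_cast Nat.isCoprime_iff_coprime.2 ((Nat.coprime_two_left.2 ho).pow_left (k + 1))
  have z : ∀ c : ℤ, w ^ (c * (2 ^ k * o)) = 1 := fun c => by
    rw [mul_comm, zpow_mul, show (2 ^ k * o : ℤ) = (orderOf w : ℕ) by rw [e]; push_cast; rfl, zpow_natCast,
      pow_orderOf_eq_one, one_zpow]
  refine ⟨_, ⟨d * 2 ^ k, rfl⟩, _, ⟨f * o, rfl⟩, ho.of_dvd_nat (orderOf_dvd_of_pow_eq_one ?_), ⟨k, ?_⟩, ?_⟩
  · rw [← zpow_natCast, ← zpow_mul, mul_assoc, z]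
  · rw [← zpow_natCast, ← zpow_mul, ← z f]; congr 1; push_cast; ring
  · simp only [← zpow_add]
    rw [show f * o + (d * 2 ^ k + d * 2 ^ k) = 1 by rw [← h]; ring, zpow_one]

theorem pz {u : G} (h : ∃ k : ℕ, u ^ 2 ^ k = 1) : IsPGroup 2 (zpowers u) := by
  obtain ⟨k, hk⟩ := h
  rintro ⟨_, i, rfl⟩
  exact ⟨k, Subtype.ext (by
    simp only [SubgroupClass.coe_pow, OneMemClass.coe_one]
    rw [← zpow_natCast, ← zpow_mul, mul_comm, zpow_mul, zpow_natCast, hk, one_zpow])⟩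

theorem mem_syl {S : Sylow 2 G} {u : G} (h : ∃ k : ℕ, u ^ 2 ^ k = 1) (e : u • S = S) : u ∈ (S : Subgroup G) :=
  (((pz h).inf_normalizer_sylow S).le ⟨mem_zpowers u, Sylow.smul_eq_iff_mem_normalizer.1 e⟩).2

theorem fixS {S : Sylow 2 G} {u : G} (h : u ∈ (S : Subgroup G)) : u • S = S :=
  Sylow.smul_eq_iff_mem_normalizer.2 (le_normalizer h)

omit [Finite G] in
theorem inv {t w e : G} (h : t * w * t⁻¹ = w⁻¹) (he : e ∈ zpowers w) : t * e * t⁻¹ = e⁻¹ := by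
  obtain ⟨i, rfl⟩ := he
  rw [← conj_zpow, h, inv_zpow]

omit [Finite G] in
theorem trI {I : Subgroup G} {R : Sylow 2 G} (h : I ≤ Zc R) {g : G} (hg : g ∈ centralizer (I : Set G)) : I ≤ Zc (g • R) :=
  fun y hy => mem_Zc_sm.2 (by rw [mul_assoc, hg y hy, inv_mul_cancel_left]; exact h hy)

omit [Finite G] in
theorem leC {I : Subgroup G} {R : Sylow 2 G} (h : I ≤ Zc R) : (R : Subgroup G) ≤ centralizer (I : Set G) :=
  fun s hs y hy => ((h hy).2.2 s hs).symm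

theorem fa {I : Subgroup G} (mx : ∀ R R' : Sylow 2 G, R ≠ R' → Nat.card ↥(Zc R ⊓ Zc R') ≤ Nat.card I) {R : Sylow 2 G}
    (h : I ≤ Zc R) {s g : G} (hs : s ∈ Zc R) (sI : s ∉ I) (hg : g ∈ centralizer (I : Set G)) (c : s * g = g * s) :
    g • R = R := by
  by_contra ne
  refine sI ((eq_of_le_of_card_ge (le_inf (trI h hg) h) (mx _ _ ne)).ge ⟨mem_Zc_sm.2 ?_, hs⟩)
  rwa [mul_assoc, c, inv_mul_cancel_left]

theorem one (h : Cx G) (n : NE G) {S S2 : Sylow 2 G} (ne : S ≠ S2) {I : Subgroup G} (h1 : I ≤ Zc S) (h2 : I ≤ Zc S2)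
    (mx : ∀ R R' : Sylow 2 G, R ≠ R' → Nat.card ↥(Zc R ⊓ Zc R') ≤ Nat.card I) {t a : G} (ht : t ∈ Zc S) (tI : t ∉ I)
    (ha : a ∈ Zc S2) (aI : a ∉ I) : ∃ i : G, i * i = 1 ∧ i • S = S2 ∧ ∃ u ∈ I, i * t * i⁻¹ = u * a := by
  obtain ⟨e, he, u, hu, oe, u2, w⟩ := split (t * a)
  have ti : t⁻¹ = t := inv_eq_of_mul_eq_one_right ht.2.1
  have ai : a⁻¹ = a := inv_eq_of_mul_eq_one_right ha.2.1
  have tw : t * (t * a) * t⁻¹ = (t * a)⁻¹ := by rw [← mul_assoc, ht.2.1, one_mul, mul_inv_rev, ai]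
  have aw : a * (t * a) * a⁻¹ = (t * a)⁻¹ := by rw [mul_inv_rev, ai, ti, mul_assoc, mul_assoc, ha.2.1, mul_one]
  have te := inv tw he
  have ae := inv aw he
  have tL := leC h1 ht.1
  have wL : zpowers (t * a) ≤ centralizer (I : Set G) := zpowers_le_of_mem (mul_mem tL (leC h2 ha.1))
  have eL := wL he
  have e1 : t * (e * a * e⁻¹) = u := by
    have : e * a = a * e⁻¹ := by rw [← ae, ai, ← mul_assoc, ← mul_assoc, ha.2.1, one_mul]
    rw [this, ← mul_assoc, ← mul_assoc, w]; group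
  have e2 : e * a * e⁻¹ = t⁻¹ * u := by rw [← e1, inv_mul_cancel_left]
  have a1 : e * a * e⁻¹ ∈ Zc (e • S2) := mem_Zc_sm.2 (by simpa [mul_assoc] using ha)
  have a2 : e * a * e⁻¹ ∉ I := fun m => aI (by
    have := eL _ m
    rw [inv_mul_cancel_right] at this
    rwa [← mul_left_cancel this] at m)
  have pD : IsPGroup 2 ↥(zpowers t ⊔ zpowers u) := (pz ⟨1, by rw [pow_one, pow_two, ht.2.1]⟩).to_sup_of_normal_right' (pz u2)
    (zpowers_le_of_mem (mem_normalizer_fintype fun y hy => by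
      rw [SetLike.mem_coe, inv (inv tw hu) hy]; exact inv_mem hy))
  have DL : zpowers t ⊔ zpowers u ≤ centralizer (I : Set G) := sup_le (zpowers_le_of_mem tL) (zpowers_le_of_mem (wL hu))
  obtain ⟨g, gL, hg⟩ : ∃ g ∈ centralizer (I : Set G), zpowers t ⊔ zpowers u ≤ ((g • S : Sylow 2 G) : Subgroup G) := by
    obtain ⟨Q, hQ⟩ := (pD.comap_subtype (K := centralizer (I : Set G))).exists_le_sylow
    obtain ⟨g, rfl⟩ := MulAction.exists_smul_eq (centralizer (I : Set G)) (S.subtype (leC h1)) Q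
    refine ⟨g, g.2, fun d hd => ?_⟩
    have := mem_sm.1 (hQ (show (⟨d, DL hd⟩ : centralizer (I : Set G)) ∈ _ from hd))
    exact mem_sm.2 this
  have tR := hg (mem_sup_left (mem_zpowers t))
  have uR := hg (mem_sup_right (mem_zpowers u))
  have key : ∀ {T : Sylow 2 G} {s : G}, I ≤ Zc T → s ∈ Zc T → s ∉ I → s ∈ ((g • S : Sylow 2 G) : Subgroup G) → g • S = T :=
    fun {T s} k1 k2 k3 k4 => n _ _ fun z hz => mem_syl ⟨1, by rw [pow_one, pow_two, hz.2.1]⟩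
      (fa mx k1 k2 k3 (leC (trI h1 gL) hz.1) (hz.2.2 s k4))
  have r1 := key h1 ht tI tR
  have r2 := key (trI h2 eL) a1 a2 (e2 ▸ mul_mem (inv_mem tR) uR)
  have r : e • S2 = S := r2.symm.trans r1
  have e0 : e ≠ 1 := fun k => ne (by rw [← r, k, one_smul])
  have uI : u ∈ I := by
    by_contra uI
    refine h.nf e ⟨e0, oe, isConj_iff.2 ⟨t, te⟩⟩ S (fa mx h1 (e1 ▸ mul_mem ht (r ▸ a1)) uI eL ?_)
    obtain ⟨i, rfl⟩ := he
    obtain ⟨j, rfl⟩ := hu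
    exact zpow_mul_comm _ _ _
  refine ⟨e⁻¹ * t, ?_, by rw [mul_smul, fixS ht.1, ← r, inv_smul_smul], u, uI, ?_⟩
  · calc _ = e⁻¹ * (t * e * t⁻¹)⁻¹ * (t * t) := by group
      _ = 1 := by rw [te, ht.2.1]; group
  · have e3 : t = u * (e * a * e⁻¹)⁻¹ := by rw [← e1, mul_inv_cancel_right]
    calc _ = e⁻¹ * t * e := by group
      _ = e⁻¹ * (u * e) * a⁻¹ := by rw [e3]; group
      _ = _ := by rw [eL u uI, ai]; group

end SW

open SW in
theorem sw (h : Cx G) (n : NE G) {S S2 : Sylow 2 G} (ne : S ≠ S2) {I : Subgroup G} (h1 : I ≤ Zc S) (h2 : I ≤ Zc S2)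
    (mx : ∀ R R' : Sylow 2 G, R ≠ R' → Nat.card ↥(Zc R ⊓ Zc R') ≤ Nat.card I) {t a b : G} (ht : t ∈ Zc S) (tI : t ∉ I)
    (ha : a ∈ Zc S2) (aI : a ∉ I) (hb : b ∈ Zc S2) (bI : b ∉ I) : a * b ∈ I := by
  obtain ⟨i, i2, iS, u, uI, e1⟩ := one h n ne h1 h2 mx ht tI ha aI
  obtain ⟨j, j2, jS, v, vI, e2⟩ := one h n ne h1 h2 mx ht tI hb bI
  have ii : i⁻¹ = i := inv_eq_of_mul_eq_one_right i2
  have ji : j⁻¹ = j := inv_eq_of_mul_eq_one_right j2
  have gS : i * j ∈ MulAction.stabilizer G S2 := by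
    rw [MulAction.mem_stabilizer_iff, ← jS, mul_smul, ← mul_smul j, j2, one_smul, iS, jS]
  obtain ⟨e, he, w, -, oe, w2, hw⟩ := split (i * j)
  have e0 : e = 1 := by
    by_contra e0
    exact h.nf e ⟨e0, oe, isConj_iff.2 ⟨i, inv (by rw [← mul_assoc, i2, one_mul, mul_inv_rev, ji]) he⟩⟩ S2
      (zpowers_le_of_mem gS he)
  rw [e0, mul_one, mul_one] at hw
  have c := (mul_mem (h2 vI) hb).2.2 _ (mem_syl (hw ▸ w2) gS)
  have e3 : u * a = v * b := by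
    rw [← e1, ← mul_inv_cancel_right (v * b) (i * j), ← c, ← e2]
    calc _ = i * (j * j) * t * (j * j)⁻¹ * i⁻¹ := by rw [j2]; group
      _ = _ := by group
  rw [show a * b = u⁻¹ * v by rw [← inv_mul_cancel_left u a, e3, mul_assoc, mul_assoc, hb.2.1, mul_one]]
  exact mul_mem (inv_mem uI) vI

end Cfsg.Agent.RD
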