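import Cfsg.Agent.RD.A

/-! No real element normalizes a subgroup between `Zc S` and `S`. -/

set_option autoImplicit false

namespace Cfsg.Agent.RD

open Subgroup

variable {G : Type*} [Group G]

namespace PW

def DD (y : G) (Q : Sylow 2 G) : Subgroup G := ⨅ j : ℤ, ((y ^ j • Q : Sylow 2 G) : Subgroup G)

theorem memD {y t : G} {Q : Sylow 2 G} :
    t ∈ DD y Q ↔ ∀ j : ℤ, (y ^ j)⁻¹ * t * y ^ j ∈ (Q : Subgroup G) := by
  simp only [DD, mem_iInf, mem_sm]

theorem D_le (y : G) (Q : Sylow 2 G) : DD y Q ≤ Q := fun t ht => by simpa using memD.1 ht 0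

theorem nD (y : G) (Q : Sylow 2 G) : y ∈ normalizer (DD y Q : Set G) := by
  refine mem_normalizer_iff''.2 fun t => ⟨fun h => memD.2 fun j => ?_, fun h => memD.2 fun j => ?_⟩
  · have := memD.1 h (1 + j)
    convert this using 1
    group
  · have := memD.1 h (j - 1)
    convert this using 1
    group

theorem leD {y : G} {Q : Sylow 2 G} {U : Subgroup G} (h : U ≤ Q) (hy : y ∈ normalizer (U : Set G)) :
    U ≤ DD y Q := fun t ht => memD.2 fun j => h ((mem_normalizer_iff''.1 (zpow_mem hy j) t).1 ht)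

theorem memD_sm {y c t : G} {Q : Sylow 2 G} (hc : c * y = y * c) :
    t ∈ DD y (c • Q) ↔ c⁻¹ * t * c ∈ DD y Q := by
  simp only [memD, mem_sm]
  refine forall_congr' fun j => ?_
  have h1 : c * y ^ j = y ^ j * c := (Commute.zpow_right (hc : Commute c y) j).eq
  have : c⁻¹ * ((y ^ j)⁻¹ * t * y ^ j) * c = (y ^ j)⁻¹ * (c⁻¹ * t * c) * y ^ j := by
    calc _ = (y ^ j * c)⁻¹ * t * (y ^ j * c) := by group
      _ = (c * y ^ j)⁻¹ * t * (c * y ^ j) := by rw [h1]
      _ = _ := by group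
  rw [this]

def WW (T : Subgroup G) : Subgroup G := ⨆ (R : Sylow 2 G) (_ : Zc R ≤ T), Zc R

theorem W_le (T : Subgroup G) : WW T ≤ T := iSup₂_le fun _ h => h

theorem le_W {T : Subgroup G} {R : Sylow 2 G} (h : Zc R ≤ T) : Zc R ≤ WW T :=
  le_iSup₂_of_le (f := fun (R : Sylow 2 G) (_ : Zc R ≤ T) => Zc R) R h le_rfl

theorem nW {T : Subgroup G} {g : G} (hg : g ∈ normalizer (T : Set G)) :
    g ∈ normalizer (WW T : Set G) := by
  have key : ∀ g ∈ normalizer (T : Set G), ∀ t ∈ WW T, g * t * g⁻¹ ∈ WW T := by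
    intro g hg
    have : WW T ≤ (WW T).comap (MulAut.conj g).toMonoidHom := by
      refine iSup₂_le fun R hR t ht => ?_
      have h1 : Zc (g • R) ≤ T := fun u hu =>
        (mem_normalizer_iff''.1 hg u).2 (hR (mem_Zc_sm.1 hu))
      exact le_W h1 (mem_Zc_sm.2 (by simpa [mul_assoc] using ht))
    exact fun t ht => this ht
  refine mem_normalizer_iff.2 fun t => ⟨key g hg t, fun h => ?_⟩
  simpa [mul_assoc] using key g⁻¹ (inv_mem hg) _ h

end PW

open PW in
theorem wl [Finite G] (h : Cx G) : WL G := by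
  intro y S X hy hZ hX hn
  have hS : Zc S ≤ DD y S := hZ.trans (leD hX hn)
  have hall : ∀ Q : Sylow 2 G, Zc Q ≤ DD y Q := by
    intro Q
    obtain ⟨c, hc, rfl⟩ := h.tr y hy S Q
    exact fun t ht => (memD_sm hc).2 (hS (mem_Zc_sm.1 ht))
  set W1 := WW (DD y S) with hW1
  have hWS : W1 ≤ S := (W_le _).trans (D_le y S)
  have hyW : y ∈ normalizer (W1 : Set G) := nW (nD y S)
  have claim : ∀ R : Sylow 2 G, Zc R ≤ normalizer (W1 : Set G) → Zc R ≤ DD y S := by
    intro R hR
    have hV : IsPGroup 2 ↥(DD y R ⊓ normalizer (W1 : Set G)) :=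
      R.isPGroup'.to_le (inf_le_left.trans (D_le y R))
    obtain ⟨S4, hS4⟩ := (IsPGroup.to_sup_of_normal_left' (S.isPGroup'.to_le hWS) hV
      inf_le_right).exists_le_sylow
    have h1 : W1 ≤ DD y S4 := leD (le_sup_left.trans hS4) hyW
    have h2 : DD y R ⊓ normalizer (W1 : Set G) ≤ DD y S4 :=
      leD (le_sup_right.trans hS4) (inf_normalizer_le_normalizer_inf ⟨nD y R, le_normalizer hyW⟩)
    obtain ⟨c, hc, rfl⟩ := h.tr y hy S S4
    have e : {R : Sylow 2 G | Zc R ≤ DD y S} = {R : Sylow 2 G | Zc R ≤ DD y (c • S)} := by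
      refine Set.eq_of_subset_of_ncard_le (fun R hR => (le_W hR).trans h1) ?_ (Set.toFinite _)
      refine Set.ncard_le_ncard_of_injOn (fun R => c⁻¹ • R) (fun R hR t ht => ?_)
        (fun R _ R' _ e => MulAction.injective c⁻¹ e) (Set.toFinite _)
      have := (memD_sm hc).1 (hR (mem_Zc_sm.1 ht))
      simpa [mul_assoc] using this
    have : R ∈ {R : Sylow 2 G | Zc R ≤ DD y (c • S)} := (le_inf (hall R) hR).trans h2
    rw [← e] at this
    exact this
  have eW : ∀ T : Subgroup G, W1 ≤ T → T ≤ normalizer (W1 : Set G) → WW T = W1 := fun T h1 h2 =>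
    le_antisymm (iSup₂_le fun R hR => le_W (claim R (hR.trans h2)))
      (iSup₂_le fun R hR => le_W ((le_W hR).trans h1))
  have hT : (S : Subgroup G) ≤ normalizer (W1 : Set G) := by
    by_contra hc
    set T := (S : Subgroup G) ⊓ normalizer (W1 : Set G) with hT
    have hTS : T ≤ S := inf_le_left
    haveI : Fact (Nat.Prime 2) := ⟨Nat.prime_two⟩
    haveI := S.isPGroup'.isNilpotent
    have hlt : T.subgroupOf S < ⊤ := lt_top_iff_ne_top.2 fun e =>
      hc ((subgroupOf_eq_top.1 e).trans inf_le_right)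
    have := normalizerCondition_of_isNilpotent _ hlt
    rw [← subgroupOf_normalizer_eq hTS] at this
    obtain ⟨g, hg1, hg2⟩ := SetLike.exists_of_lt this
    apply hg2
    have h3 := nW (mem_subgroupOf.1 hg1)
    rw [eW T (le_inf hWS le_normalizer) inf_le_right] at h3
    exact mem_subgroupOf.2 ⟨g.2, h3⟩
  refine h.nf y hy S (h.mx S W1 (fun e => h.zn S (eq_bot_iff.2 (e ▸ le_W hS))) hWS
    (fun g hg => ?_) y hyW)
  rw [← eW S hWS hT]
  exact nW (Sylow.smul_eq_iff_mem_normalizer.1 hg)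

end Cfsg.Agent.RD
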